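import Cfsg.Agent.H762.L5.Refl

/-!
# S5924, piece T4 (helper762), second part
-/

set_option autoImplicit false
set_option linter.unusedSectionVars false

namespace Cfsg.Agent.H762.L5

open CoxeterSystem Subgroup Cfsg Cfsg.Lie Cfsg.Lie.ChevalleyDatum
open Cfsg.Agent.ChevalleyStructure Cfsg.Agent.ChevalleyStructure.Elts Cfsg.Agent.ChevalleyStructure.CoxeterGeom
  Cfsg.Agent.ChevalleyStructure.CoxeterGeomTypes Cfsg.Agent.ChevalleyStructure.NPerm
open Cfsg.Agent.Tits.Roots Cfsg.Agent.Tits.Core Cfsg.Agent.Nodes Cfsg.Agent.Nodes.SubComb Cfsg.Agent.Nodes.Reps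
  Cfsg.Agent.Nodes.BNOf Cfsg.Agent.Nodes.RGDChev Cfsg.Agent.Nodes.Bruhat Cfsg.Agent.Nodes.Coroot
open Cfsg.Agent.H865.EE Cfsg.Agent.H865.L5

attribute [local irreducible] w8

/-- `F₅⁴` -/
abbrev V := Fin 4 → ZMod 5

/-! ### Linear algebra -/

theorem linInd {K W : Type*} [Field K] [AddCommGroup W] [Module K W] (T : Module.End K W) {v : W} {m : ℕ}
    (h1 : (T ^ m) v ≠ 0) (h2 : (T ^ (m + 1)) v = 0) : LinearIndependent K fun i : Fin (m + 1) => (T ^ (i : ℕ)) v := by
  have hz : ∀ n, m + 1 ≤ n → (T ^ n) v = 0 := by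
    intro n hn
    obtain ⟨k, rfl⟩ := Nat.exists_eq_add_of_le hn
    rw [add_comm, pow_add, Module.End.mul_apply, h2, map_zero]
  classical
  rw [Fintype.linearIndependent_iff]
  intro g hg
  by_contra hcon
  push Not at hcon
  obtain ⟨i, hi⟩ := hcon
  -- the smallest index
  obtain ⟨j, hj, hmin⟩ := Finset.exists_minimal (s := Finset.univ.filter fun i : Fin (m + 1) => g i ≠ 0)
    ⟨i, Finset.mem_filter.2 ⟨Finset.mem_univ _, hi⟩⟩
  have hj0 := (Finset.mem_filter.1 hj).2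
  have h3 := congrArg (T ^ (m - j)) hg
  rw [map_zero, map_sum, Finset.sum_eq_single j] at h3
  · rw [map_smul, ← Module.End.mul_apply, ← pow_add, Nat.sub_add_cancel (Nat.lt_succ_iff.1 j.2)] at h3
    exact (smul_ne_zero hj0 h1) h3
  · intro b _ hb
    rcases lt_or_gt_of_ne hb with hlt | hgt
    · have : g b = 0 := by
        by_contra hne
        exact absurd (hmin (Finset.mem_filter.2 ⟨Finset.mem_univ _, hne⟩) hlt.le) (not_le.2 hlt)
      rw [this, zero_smul, map_zero]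
    · rw [map_smul, ← Module.End.mul_apply, ← pow_add, hz, smul_zero]
      have := Fin.lt_def.1 hgt
      omega
  · intro h
    exact absurd (Finset.mem_univ j) h

/-- a functional which kills `v, T v, T² v, T³ v` -/
theorem dual_eq_zero (T : Module.End (ZMod 5) V) (h5 : T ^ 5 = 0) {v : V} (h3 : (T ^ 3) v ≠ 0)
    (ψ : Module.Dual (ZMod 5) V) (hψ : ∀ k < 4, ψ ((T ^ k) v) = 0) : ψ = 0 := by
  have h4 : (T ^ 4) v = 0 := by
    by_contra h4
    have h6 := linInd T h4 (by rw [h5]; rfl)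
    have h7 := h6.fintype_card_le_finrank
    rw [Fintype.card_fin, Module.finrank_fintype_fun_eq_card, Fintype.card_fin] at h7
    omega
  have h6 := linInd T h3 h4
  have h7 := h6.span_eq_top_of_card_eq_finrank (by
    rw [Fintype.card_fin, Module.finrank_fintype_fun_eq_card, Fintype.card_fin])
  refine LinearMap.ext fun x => ?_
  have hx : x ∈ Submodule.span (ZMod 5) (Set.range fun i : Fin 4 => (T ^ (i : ℕ)) v) := by
    rw [h7]; trivial
  induction hx using Submodule.span_induction with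
  | mem y hy =>
    obtain ⟨i, rfl⟩ := hy
    exact hψ i i.2
  | zero => rw [map_zero, map_zero]
  | add y z _ _ hy hz => rw [map_add, map_add, hy, hz]
  | smul c y _ hy => rw [map_smul, map_smul, hy]

/-! ### The maps on `F₅⁴` -/

theorem PP_surj' : Function.Surjective PP := fun c => PP_surj c

/-- additive maps on the root lattice which factor through `PP` -/
theorem exists_lift {W : Type*} [AddCommGroup W] [Module (ZMod 5) W] (g : L →+ W) (hg : ∀ x, PP x = 0 → g x = 0) :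
    ∃ T : V →ₗ[ZMod 5] W, ∀ x, T (PP x) = g x := by
  let T0 : V →+ W := AddMonoidHom.liftOfSurjective PP PP_surj' ⟨g, fun x hx => hg x hx⟩
  refine ⟨AddMonoidHom.toZModLinearMap 5 T0, fun x => ?_⟩
  exact AddMonoidHom.liftOfRightInverse_comp_apply PP (Function.surjInv PP_surj')
    (Function.rightInverse_surjInv PP_surj') ⟨g, fun x hx => hg x hx⟩ x

/-- `A - 1` -/
noncomputable def BB (u : W8) : Module.End ℤ L := act u - 1

theorem exists_T {u : W8} (hu : u ∈ CW) : ∃ T : Module.End (ZMod 5) V, ∀ x, T (PP x) = PP (BB u x) := by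
  obtain ⟨T, hT⟩ := exists_lift (PP.comp (BB u).toAddMonoidHom) (fun x hx => by
    show PP (act u x - x) = 0
    rw [map_sub, H111.EE.PP_act hu (hx.trans (map_zero PP).symm), map_zero, map_zero, hx, sub_zero])
  exact ⟨T, hT⟩

theorem T_pow {u : W8} {T : Module.End (ZMod 5) V} (hT : ∀ x, T (PP x) = PP (BB u x)) (n : ℕ) (x : L) :
    (T ^ n) (PP x) = PP ((BB u ^ n) x) := by
  induction n with
  | zero => rw [pow_zero, pow_zero]; rfl
  | succ n ih => rw [pow_succ', pow_succ', Module.End.mul_apply, Module.End.mul_apply, ih, hT]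

theorem T_five {u : W8} (h5 : u ^ 5 = 1) {T : Module.End (ZMod 5) V} (hT : ∀ x, T (PP x) = PP (BB u x)) :
    T ^ 5 = 0 := by
  refine LinearMap.ext fun c => ?_
  obtain ⟨x, rfl⟩ := PP_surj c
  rw [T_pow hT, LinearMap.zero_apply]
  have hA : (act u) ^ 5 = (1 : Module.End ℤ L) := by
    rw [← map_pow, h5, map_one]
  have e : BB u ^ 5 = (5 : ℤ) • (-(act u) ^ 4 + 2 * (act u) ^ 3 - 2 * (act u) ^ 2 + act u) := by
    have e1 : BB u ^ 5 = (act u) ^ 5 - 1 + (5 : ℤ) • (-(act u) ^ 4 + 2 * (act u) ^ 3 - 2 * (act u) ^ 2 + act u) := by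
      rw [BB]
      noncomm_ring
    rw [e1, hA, sub_self, zero_add]
  rw [e, LinearMap.smul_apply, map_zsmul, ← Int.cast_smul_eq_zsmul (ZMod 5)]
  have : ((5 : ℤ) : ZMod 5) = 0 := by decide
  rw [this, zero_smul]

/-- the functionals `h(z, .)` -/
theorem exists_h (z : L) : ∃ ψ : Module.Dual (ZMod 5) V, ∀ x, ψ (PP x) = ((bf z x + 3 * bf z (act w8 x) : ℤ) : ZMod 5) := by
  let g : L →+ ZMod 5 :=
    { toFun := fun x => ((bf z x + 3 * bf z (act w8 x) : ℤ) : ZMod 5)
      map_zero' := by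
        have h0 : bf z 0 = 0 := by
          have := bf_smul_right 0 z (0 : L)
          rwa [zero_smul, zero_mul] at this
        rw [map_zero, h0]
        rfl
      map_add' := fun x y => by
        rw [map_add, bf_add_right, bf_add_right, ← Int.cast_add]
        congr 1
        ring }
  refine exists_lift g fun x hx => ?_
  obtain ⟨y, rfl⟩ := exists_of_PP hx
  show ((bf z (act w8 y - 2 • y) + 3 * bf z (act w8 (act w8 y - 2 • y)) : ℤ) : ZMod 5) = 0
  rw [map_sub, w8_sq, map_nsmul, ← natCast_zsmul y 2, ← natCast_zsmul (act w8 y) 2, bf_sub_right, bf_sub_right,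
    bf_neg_right, bf_smul_right, bf_smul_right, ZMod.intCast_zmod_eq_zero_iff_dvd]
  refine ⟨-(bf z (act w8 y)) - bf z y, ?_⟩
  push_cast
  ring

/-! ### The orbits of roots -/

theorem xx_zero (u : W8) (a : L) : xx u a 0 = a := by
  rw [xx, ZMod.val_zero, pow_zero, act_one]

theorem xx_one (u : W8) (a : L) : xx u a 1 = act u a := by
  rw [xx, show (1 : ZMod 5).val = 1 from rfl, pow_one]

theorem BB_xx {u : W8} (h5 : u ^ 5 = 1) (a : L) (i : ZMod 5) : BB u (xx u a i) = xx u a (i + 1) - xx u a i := by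
  rw [← act_xx h5]
  rfl

/-- a functional which vanishes on the orbit -/
theorem ker_orbit {u : W8} (h5 : u ^ 5 = 1) {T : Module.End (ZMod 5) V} (hT : ∀ x, T (PP x) = PP (BB u x)) (a : L)
    {ψ : Module.Dual (ZMod 5) V} (h : ∀ i, ψ (PP (xx u a i)) = 0) (k : ℕ) : ψ ((T ^ k) (PP a)) = 0 := by
  have key : ∀ k i, ψ (PP ((BB u ^ k) (xx u a i))) = 0 := by
    intro k
    induction k with
    | zero => intro i; rw [pow_zero]; exact h i
    | succ k ih =>
      intro i
      rw [pow_succ, Module.End.mul_apply, BB_xx h5, map_sub, map_sub, map_sub, ih, ih, sub_zero]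
  have h1 := key k 0
  rw [xx_zero] at h1
  rw [T_pow hT, h1]

theorem BB_three {u : W8} (h5 : u ^ 5 = 1) (a : L) :
    (BB u ^ 3) a = xx u a 3 - (3 : ℤ) • xx u a 2 + (3 : ℤ) • xx u a 1 - xx u a 0 := by
  have e : BB u ^ 3 = BB u * (BB u * BB u) := by rw [pow_succ, pow_two, mul_assoc]
  have e1 : (0 : ZMod 5) + 1 = 1 := by decide
  have e2 : (1 : ZMod 5) + 1 = 2 := by decide
  have e3 : (2 : ZMod 5) + 1 = 3 := by decide
  nth_rewrite 1 [← xx_zero u a]
  rw [e, Module.End.mul_apply, Module.End.mul_apply]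
  simp only [BB_xx h5, map_sub, e1, e2, e3]
  module

theorem arith {α β s t : ℤ}
    (k0 : (5 : ℤ) ∣ β - 3 * β + 3 * α - 2 + 3 * (-t - 3 * t + 3 * s - 0))
    (k1 : (5 : ℤ) ∣ β - 3 * α + 3 * 2 - α + 3 * (t - 3 * s + 3 * 0 - -s))
    (l1 : α ≤ 2) (l2 : β ≤ 2) (l3 : -2 ≤ α) (l4 : -2 ≤ β) (l5 : s ≤ 2) (l6 : t ≤ 2) (l7 : -2 ≤ s) (l8 : -2 ≤ t)
    (α2 : α ≠ 2) (β2 : β ≠ 2) (α3 : α ≠ -2) (β3 : β ≠ -2) (s2 : s ≠ 2) (s3 : s ≠ -2) (t2 : t ≠ 2) (t3 : t ≠ -2) :
    s = 0 ∧ t = 0 ∧ (α = -1 ∧ β = 0 ∨ α = 0 ∧ β = -1) := by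
  have hs : s = -1 ∨ s = 0 ∨ s = 1 := by omega
  have ht : t = -1 ∨ t = 0 ∨ t = 1 := by omega
  have hα : α = -1 ∨ α = 0 ∨ α = 1 := by omega
  have hβ : β = -1 ∨ β = 0 ∨ β = 1 := by omega
  rcases hs with rfl | rfl | rfl <;> rcases ht with rfl | rfl | rfl <;> rcases hα with rfl | rfl | rfl <;>
    rcases hβ with rfl | rfl | rfl <;> first
      | exact ⟨rfl, rfl, Or.inl ⟨rfl, rfl⟩⟩
      | exact ⟨rfl, rfl, Or.inr ⟨rfl, rfl⟩⟩
      | (exfalso; revert k0 k1; norm_num; done)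

section killed

variable {u : W8} (hu : u ∈ CW) (h5 : u ^ 5 = 1) {a : L} (ha : Rt a)

include hu h5 in
theorem congr_of (hP : PP ((BB u ^ 3) a) = 0) (z : L) :
    (5 : ℤ) ∣ bf z (xx u a 3) - 3 * bf z (xx u a 2) + 3 * bf z (xx u a 1) - bf z (xx u a 0) +
      3 * (bf z (act w8 (xx u a 3)) - 3 * bf z (act w8 (xx u a 2)) + 3 * bf z (act w8 (xx u a 1)) -
        bf z (act w8 (xx u a 0))) := by
  obtain ⟨ψ, hψ⟩ := exists_h z
  have h1 := hψ ((BB u ^ 3) a)
  rw [hP, map_zero, eq_comm, ZMod.intCast_zmod_eq_zero_iff_dvd, BB_three h5] at h1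
  simp only [map_sub, map_add, map_smul, bf_sub_right, bf_add_right, bf_smul_right] at h1
  exact_mod_cast h1

include ha in
theorem root_xx (i : ZMod 5) : Rt (xx u a i) := rt_act ha _

include h5 in
theorem ne_neg (ha0 : a ≠ 0) {v : W8} (hv : v ^ 5 = 1) : act v a ≠ -a := by
  intro h
  have key : ∀ n : ℕ, act (v ^ n) a = ((-1 : ℤ) ^ n) • a := by
    intro n
    induction n with
    | zero => rw [pow_zero, pow_zero, act_one, one_smul]
    | succ n ih =>
      rw [pow_succ, act_mul, h, map_neg, ih, pow_succ, mul_neg_one, neg_smul]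
  have h1 := key 5
  rw [hv, act_one] at h1
  apply ha0
  have h2 : (2 : ℤ) • a = 0 := by
    have h3 : ((-1 : ℤ) ^ 5) • a = -a := by norm_num
    rw [h3] at h1
    rw [two_smul]
    nth_rewrite 1 [h1]
    rw [neg_add_cancel]
  exact (smul_eq_zero.1 h2).resolve_left (by norm_num)

include h5 in
theorem xx_sq (i : ZMod 5) : xx (u ^ 2) a i = xx u a (2 * i) := by
  have h1 : u ^ (2 * i.val) = u ^ (2 * i).val := by
    refine pow_eq_pow_of_modEq ?_ h5
    rw [ZMod.val_mul]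
    exact (Nat.mod_modEq _ _).symm
  rw [xx, xx, ← pow_mul, h1]

include hu h5 ha in
/-- **The roots killed by `(u - 1)³`** -/
theorem cox_of (hP : PP ((BB u ^ 3) a) = 0) (hne : act u a ≠ a) : Cox u a ∨ Cox (u ^ 2) a := by
  have ha0 := rt_ne_zero ha
  set α := bf (xx u a 0) (xx u a 1) with hα
  set β := bf (xx u a 0) (xx u a 2) with hβ
  set s := bf (xx u a 0) (act w8 (xx u a 1)) with hs
  set t := bf (xx u a 0) (act w8 (xx u a 2)) with ht
  have r := root_xx (u := u) ha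
  have h4 : bf (xx u a 0) (xx u a 4) = α := bf_xx_neg h5 a 1
  have h3 : bf (xx u a 0) (xx u a 3) = β := bf_xx_neg h5 a 2
  have h0 : bf (xx u a 0) (xx u a 0) = 2 := bf_self (r 0)
  have j4 : bf (xx u a 0) (act w8 (xx u a 4)) = -s := bf_J_neg h5 a hu 1
  have j3 : bf (xx u a 0) (act w8 (xx u a 3)) = -t := bf_J_neg h5 a hu 2
  have j0 : bf (xx u a 0) (act w8 (xx u a 0)) = 0 := w8_self _
  have b : ∀ i j, bf (xx u a i) (xx u a j) = bf (xx u a 0) (xx u a (j - i)) := bf_xx h5 a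
  have bj : ∀ i j, bf (xx u a i) (act w8 (xx u a j)) = bf (xx u a 0) (act w8 (xx u a (j - i))) := bf_J h5 a hu
  have b10 : bf (xx u a 1) (xx u a 0) = α := (b 1 0).trans h4
  have b11 : bf (xx u a 1) (xx u a 1) = 2 := (b 1 1).trans h0
  have b12 : bf (xx u a 1) (xx u a 2) = α := b 1 2
  have b13 : bf (xx u a 1) (xx u a 3) = β := b 1 3
  have c10 : bf (xx u a 1) (act w8 (xx u a 0)) = -s := (bj 1 0).trans j4
  have c11 : bf (xx u a 1) (act w8 (xx u a 1)) = 0 := (bj 1 1).trans j0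
  have c12 : bf (xx u a 1) (act w8 (xx u a 2)) = s := bj 1 2
  have c13 : bf (xx u a 1) (act w8 (xx u a 3)) = t := bj 1 3
  -- the congruences
  have k0 := congr_of hu h5 hP (xx u a 0)
  have k1 := congr_of hu h5 hP (xx u a 1)
  rw [h3, ← hβ, ← hα, h0, j3, ← ht, ← hs, j0] at k0
  rw [b13, b12, b11, b10, c13, c12, c11, c10] at k1
  -- bounds
  have hx1 : xx u a 1 = act u (xx u a 0) := by rw [xx_one, xx_zero]
  have hx2 : xx u a 2 = act (u ^ 2) (xx u a 0) := by rw [xx_zero]; rfl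
  have p1 : (u ^ 1) ^ 5 = 1 := by rw [pow_one, h5]
  have p2 : (u ^ 2) ^ 5 = 1 := by rw [← pow_mul, mul_comm, pow_mul, h5, one_pow]
  have hx0 : xx u a 0 ≠ 0 := by rw [xx_zero]; exact ha0
  have α2 : α ≠ 2 := by
    intro h
    have h1 := eq_of_bf (r 0) (r 1) h
    rw [xx_zero, xx_one] at h1
    exact hne h1.symm
  have β2 : β ≠ 2 := by
    intro h
    have h1 := eq_of_bf (r 0) (r 2) h
    rw [hx2, xx_zero] at h1
    apply hne
    have h2 : act (u ^ 6) a = a := by
      rw [show u ^ 6 = u ^ 2 * (u ^ 2 * u ^ 2) by group, act_mul, act_mul, ← h1, ← h1, ← h1]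
    rwa [show u ^ 6 = u by rw [pow_succ, h5, one_mul]] at h2
  have α3 : α ≠ -2 := by
    intro h
    have h1 := eq_neg_of_bf (r 0) (r 1) h
    rw [hx1] at h1
    exact ne_neg h5 hx0 h5 (by rw [eq_neg_iff_add_eq_zero, add_comm, ← eq_neg_iff_add_eq_zero]; exact h1)
  have β3 : β ≠ -2 := by
    intro h
    have h1 := eq_neg_of_bf (r 0) (r 2) h
    rw [hx2] at h1
    exact ne_neg h5 hx0 p2 (by rw [eq_neg_iff_add_eq_zero, add_comm, ← eq_neg_iff_add_eq_zero]; exact h1)
  have hJJ : ∀ v : W8, v ∈ CW → v ^ 5 = 1 → ∀ ε : ℤ, ε * ε = 1 → xx u a 0 ≠ ε • act w8 (act v (xx u a 0)) := by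
    intro v hv hv5 ε hε h
    have h1 : act w8 (act v (xx u a 0)) = ε • xx u a 0 := by
      nth_rewrite 2 [h]
      rw [smul_smul, hε, one_smul]
    have h2 : act (v ^ 2) (xx u a 0) = -(xx u a 0) := by
      have h3 : act w8 (act v (act w8 (act v (xx u a 0)))) = xx u a 0 := by
        rw [h1, map_smul, map_smul, h1, smul_smul, hε, one_smul]
      rw [mem_CW.1 hv, w8_sq, ← act_mul, ← pow_two] at h3
      rw [← h3, neg_neg, h3]
    exact ne_neg h5 hx0 (by rw [← pow_mul, mul_comm, pow_mul, hv5, one_pow]) h2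
  have rj := fun i => rt_act (r i) w8
  have s2 : s ≠ 2 := fun h => hJJ u hu h5 1 (by norm_num) (by rw [one_smul, ← hx1]; exact eq_of_bf (r 0) (rj 1) h)
  have s3 : s ≠ -2 := fun h => hJJ u hu h5 (-1) (by norm_num) (by
    rw [neg_one_smul, ← hx1]; exact eq_neg_of_bf (r 0) (rj 1) h)
  have hu2 : u ^ 2 ∈ CW := pow_mem hu 2
  have t2 : t ≠ 2 := fun h => hJJ (u ^ 2) hu2 p2 1 (by norm_num) (by rw [one_smul, ← hx2]; exact eq_of_bf (r 0) (rj 2) h)
  have t3 : t ≠ -2 := fun h => hJJ (u ^ 2) hu2 p2 (-1) (by norm_num) (by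
    rw [neg_one_smul, ← hx2]; exact eq_neg_of_bf (r 0) (rj 2) h)
  have l1 := bf_le (r 0) (r 1)
  have l2 := bf_le (r 0) (r 2)
  have l3 := le_bf (r 0) (r 1)
  have l4 := le_bf (r 0) (r 2)
  have l5 := bf_le (r 0) (rj 1)
  have l6 := bf_le (r 0) (rj 2)
  have l7 := le_bf (r 0) (rj 1)
  have l8 := le_bf (r 0) (rj 2)
  rw [← hα] at l1 l3
  rw [← hβ] at l2 l4
  rw [← hs] at l5 l7
  rw [← ht] at l6 l8
  obtain ⟨hs0, ht0, hab⟩ := arith k0 k1 l1 l2 l3 l4 l5 l6 l7 l8 α2 β2 α3 β3 s2 s3 t2 t3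
  -- the sum
  have hsum : xx u a 0 + xx u a 1 + xx u a 2 + xx u a 3 + xx u a 4 = 0 := by
    set y := xx u a 0 + xx u a 1 + xx u a 2 + xx u a 3 + xx u a 4 with hy
    have hfix : act u y = y := by
      rw [hy, map_add, map_add, map_add, map_add, act_xx h5, act_xx h5, act_xx h5, act_xx h5, act_xx h5,
        show (0 : ZMod 5) + 1 = 1 by decide, show (1 : ZMod 5) + 1 = 2 by decide, show (2 : ZMod 5) + 1 = 3 by decide,
        show (3 : ZMod 5) + 1 = 4 by decide, show (4 : ZMod 5) + 1 = 0 by decide]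
      abel
    have g0 : bf y (xx u a 0) = 0 := by
      rw [hy, bf_add_left, bf_add_left, bf_add_left, bf_add_left, bf_comm (xx u a 1), bf_comm (xx u a 2),
        bf_comm (xx u a 3), bf_comm (xx u a 4), h0, h3, h4, ← hα, ← hβ]
      rcases hab with ⟨e1, e2⟩ | ⟨e1, e2⟩
      · rw [e1, e2]; norm_num
      · rw [e1, e2]; norm_num
    have g : ∀ n : ℕ, bf y (xx u a n) = 0 := by
      intro n
      induction n with
      | zero => rw [Nat.cast_zero]; exact g0
      | succ n ih =>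
        rw [Nat.cast_succ, ← act_xx h5]
        nth_rewrite 1 [← hfix]
        rw [bf_act, ih]
    have g1 : bf y (xx u a 1) = 0 := g 1
    have g2 : bf y (xx u a 2) = 0 := g 2
    have g3 : bf y (xx u a 3) = 0 := g 3
    have g4 : bf y (xx u a 4) = 0 := g 4
    apply eq_zero_of_bf
    nth_rewrite 2 [hy]
    rw [bf_add_right, bf_add_right, bf_add_right, bf_add_right, g0, g1, g2, g3, g4]
    norm_num
  rcases hab with ⟨e1, e2⟩ | ⟨e1, e2⟩
  · exact Or.inl ⟨hu, h5, ha, e1, e2, hs0, ht0, hsum⟩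
  · refine Or.inr ⟨hu2, p2, ha, ?_, ?_, ?_, ?_, ?_⟩
    · rw [xx_sq h5, xx_sq h5]
      exact e2
    · rw [xx_sq h5, xx_sq h5]
      exact h4.trans e1
    · rw [xx_sq h5, xx_sq h5]
      exact ht0
    · rw [xx_sq h5, xx_sq h5]
      exact j4.trans (by rw [hs0, neg_zero])
    · rw [xx_sq h5, xx_sq h5, xx_sq h5, xx_sq h5, xx_sq h5, ← hsum]
      show xx u a 0 + xx u a 2 + xx u a 4 + xx u a 1 + xx u a 3 = _
      abel

end killed

/-! ### No fixed roots -/

theorem no_fixed {u : W8} (hu : u ∈ CW) (h5 : u ^ 5 = 1) (h1 : u ≠ 1) {a : L} (ha : Rt a) : act u a ≠ a := by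
  intro hfix
  obtain ⟨b, hb, hsum⟩ := Cfsg.Agent.BpExc.Fix.exists_root_sum_eq_zero (cs := cs8) (h := tp8.isCartan) h1
    (by norm_num : 0 < 5) h5
  have hs : xx u b 0 + xx u b 1 + xx u b 2 + xx u b 3 + xx u b 4 = 0 := by
    rw [← hsum]
    simp only [Finset.sum_range_succ, Finset.sum_range_zero, zero_add]
    rfl
  have hor : ∀ c : L, act u c = c → ∀ i, bf c (xx u b i) = 0 := by
    intro c hc
    have k : ∀ n : ℕ, bf c (xx u b n) = bf c (xx u b 0) := by
      intro n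
      induction n with
      | zero => rw [Nat.cast_zero]
      | succ n ih =>
        rw [Nat.cast_succ, ← act_xx h5]
        nth_rewrite 1 [← hc]
        rw [bf_act, ih]
    have k1 : bf c (xx u b 1) = bf c (xx u b 0) := k 1
    have k2 : bf c (xx u b 2) = bf c (xx u b 0) := k 2
    have k3 : bf c (xx u b 3) = bf c (xx u b 0) := k 3
    have k4 : bf c (xx u b 4) = bf c (xx u b 0) := k 4
    have h0 : bf c (0 : L) = 0 := by
      have := bf_smul_right 0 c (0 : L)
      rwa [zero_smul, zero_mul] at this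
    have h2 := congrArg (bf c) hs
    rw [bf_add_right, bf_add_right, bf_add_right, bf_add_right, k1, k2, k3, k4, h0] at h2
    have h3 : bf c (xx u b 0) = 0 := by omega
    intro i
    have h4 := k i.val
    rw [ZMod.natCast_zmod_val] at h4
    rw [h4, h3]
  have hJ : ∀ i, bf a (act w8 (xx u b i)) = 0 := by
    intro i
    have h2 := hor (act w8 a) (by rw [mem_CW.1 hu, hfix]) i
    rw [w8_left] at h2
    omega
  have ha' := hor a hfix
  obtain ⟨T, hT⟩ := exists_T hu
  have hP : PP ((BB u ^ 3) b) = 0 := by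
    by_contra hP
    obtain ⟨ψ, hψ⟩ := exists_h a
    have h2 : ψ = 0 := by
      refine dual_eq_zero T (T_five h5 hT) (v := PP b) (by rw [T_pow hT]; exact hP) ψ fun k _ => ?_
      refine ker_orbit h5 hT b (fun i => ?_) k
      rw [hψ, ha', hJ]
      rfl
    have h3 := hψ a
    rw [h2, bf_self ha, w8_self, LinearMap.zero_apply] at h3
    exact absurd h3 (by decide)
  have hneb : act u b ≠ b := by
    intro h
    have hc : ∀ i, xx u b i = b := by
      intro i
      have k : ∀ n : ℕ, act (u ^ n) b = b := by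
        intro n
        induction n with
        | zero => rw [pow_zero, act_one]
        | succ n ih => rw [pow_succ, act_mul, h, ih]
      exact k _
    rw [hc, hc, hc, hc, hc] at hs
    have h2 : (5 : ℤ) • b = 0 := by rw [← hs]; module
    exact rt_ne_zero hb ((smul_eq_zero.1 h2).resolve_left (by norm_num))
  rcases cox_of hu h5 hb hP hneb with hc | hc
  · exact rt_ne_zero ha (hc.eq_zero (fun i => ha' _) fun i => hJ _)
  · refine rt_ne_zero ha (hc.eq_zero (fun i => ?_) fun i => ?_)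
    · rw [xx_sq h5]; exact ha' _
    · rw [xx_sq h5]; exact hJ _

/-! ### A killed root -/

/-- partial sums of the simple roots -/
noncomputable def ps (i : Fin 6) : L :=
  ![0, sr 0, sr 0 + sr 2, sr 0 + sr 2 + sr 3, sr 0 + sr 2 + sr 3 + sr 4, sr 0 + sr 2 + sr 3 + sr 4 + sr 5] i

theorem ps_root (i j : Fin 6) (h : i < j) : Rt (ps j - ps i) := by
  rw [rt_iff]
  revert i j
  decide +kernel

theorem exists_killed (φ : Module.Dual (ZMod 5) V) : ∃ a, Rt a ∧ φ (PP a) = 0 := by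
  obtain ⟨i, j, hij, he⟩ := Fintype.exists_ne_map_eq_of_card_lt (fun i : Fin 6 => φ (PP (ps i)))
    (by rw [ZMod.card, Fintype.card_fin]; norm_num)
  rcases lt_or_gt_of_ne hij with h | h
  · exact ⟨_, ps_root i j h, by rw [map_sub, map_sub]; exact sub_eq_zero.2 he.symm⟩
  · exact ⟨_, ps_root j i h, by rw [map_sub, map_sub]; exact sub_eq_zero.2 he⟩

theorem simple_eq (i : Fin 8) : cs8.simple i = rf (sr i) := by
  have hr : Rt (sr i) := ⟨1, i, by rw [map_one]; rfl⟩
  refine act_ext fun x => ?_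
  rw [act_rf hr, bf_sr]
  exact rep_simple_eq _ _ _ _

/-- **T4** : `u` is a product of reflections in the roots killed by the `u`-invariant functional -/
theorem mem_refl {u : W8} (hu : u ∈ CW) (h5 : u ^ 5 = 1) (h1 : u ≠ 1) {φ : Module.Dual (ZMod 5) (Fin 4 → ZMod 5)}
    (hφ : ∀ x, φ (PP (act u x)) = φ (PP x)) : u ∈ Subgroup.closure {v | ∃ a, Rt a ∧ φ (PP a) = 0 ∧ v = rf a} := by
  by_cases h0 : φ = 0
  · obtain ⟨ω, rfl⟩ := cs8.wordProd_surjective u
    clear hu h5 h1 hφ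
    induction ω with
    | nil => rw [wordProd_nil]; exact one_mem _
    | cons i ω ih =>
      rw [wordProd_cons]
      refine mul_mem (subset_closure ⟨sr i, ⟨1, i, by rw [map_one]; rfl⟩, by rw [h0]; rfl, simple_eq i⟩) ih
  obtain ⟨a, ha, hk⟩ := exists_killed φ
  have hx : ∀ i, φ (PP (xx u a i)) = 0 := by
    have k : ∀ n : ℕ, φ (PP (act (u ^ n) a)) = 0 := by
      intro n
      induction n with
      | zero => rw [pow_zero, act_one, hk]
      | succ n ih => rw [pow_succ', act_mul, hφ, ih]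
    exact fun i => k _
  obtain ⟨T, hT⟩ := exists_T hu
  have hP : PP ((BB u ^ 3) a) = 0 := by
    by_contra hP
    exact h0 (dual_eq_zero T (T_five h5 hT) (v := PP a) (by rw [T_pow hT]; exact hP) φ fun k _ => ker_orbit h5 hT a hx k)
  have hw : ∀ x, φ (PP x) = 0 → φ (PP (act w8 x)) = 0 := fun x h => by rw [PP_w8, map_nsmul, h, smul_zero]
  rcases cox_of hu h5 ha hP (no_fixed hu h5 h1 ha) with hc | hc
  · exact hc.mem_of (fun i => subset_closure ⟨_, hc.root i, hx i, rfl⟩)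
      (fun i => subset_closure ⟨_, rt_act (hc.root i) w8, hw _ (hx i), rfl⟩)
  · have h2 : u ^ 2 ∈ Subgroup.closure {v | ∃ a, Rt a ∧ φ (PP a) = 0 ∧ v = rf a} := by
      refine hc.mem_of (fun i => subset_closure ⟨_, hc.root i, ?_, rfl⟩)
        (fun i => subset_closure ⟨_, rt_act (hc.root i) w8, hw _ ?_, rfl⟩)
      · rw [xx_sq h5]; exact hx _
      · rw [xx_sq h5]; exact hx _
    have h3 := pow_mem h2 3
    rwa [← pow_mul, show 2 * 3 = 5 + 1 by norm_num, pow_succ, h5, one_mul] at h3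

end Cfsg.Agent.H762.L5
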