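import Cfsg.Agent.H865.L5.Base
import Cfsg.Agent.H136.EE.Comp
import Cfsg.Agent.H111.EE.K1

/-!
# S5924, piece T4 (helper762): an element of order 5 of `C_W(w8)` is a product of reflections in killed roots

`mem_refl` : `u ∈ CW`, `u ^ 5 = 1 ≠ u`, `φ` fixed by `u` : `u` is a product of reflections in roots `a` with
`φ (PP a) = 0`.
-/

set_option autoImplicit false
set_option linter.unusedSectionVars false

namespace Cfsg.Agent.H762.L5

open CoxeterSystem Subgroup Cfsg Cfsg.Lie Cfsg.Lie.ChevalleyDatum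
open Cfsg.Agent.ChevalleyStructure Cfsg.Agent.ChevalleyStructure.Elts Cfsg.Agent.ChevalleyStructure.CoxeterGeom
  Cfsg.Agent.ChevalleyStructure.CoxeterGeomTypes Cfsg.Agent.ChevalleyStructure.NPerm
open Cfsg.Agent.Tits.Roots Cfsg.Agent.Tits.Core Cfsg.Agent.Nodes Cfsg.Agent.Nodes.SubComb Cfsg.Agent.Nodes.Reps
  Cfsg.Agent.Nodes.BNOf Cfsg.Agent.Nodes.RGDChev Cfsg.Agent.Nodes.Bruhat Cfsg.Agent.Nodes.Coroot
open Cfsg.Agent.H865.EE Cfsg.Agent.H865.L5

attribute [local irreducible] w8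

/-- the root lattice -/
abbrev L := Fin 8 → ℤ

/-! ### The form -/

theorem bf_sos (x : L) : 60 * bf x x = 30 * (2 * x 0 - x 2) ^ 2 + 10 * (3 * x 2 - 2 * x 3) ^ 2 +
    30 * (2 * x 1 - x 3) ^ 2 + 2 * (5 * x 3 - 6 * x 4) ^ 2 + 3 * (4 * x 4 - 5 * x 5) ^ 2 +
    5 * (3 * x 5 - 4 * x 6) ^ 2 + 10 * (2 * x 6 - 3 * x 7) ^ 2 + 30 * x 7 ^ 2 := by
  rw [H136.EE.bf_eq, H136.EE.toL_eq]
  simp only [H136.EE.bL]
  ring

theorem bf_nonneg (x : L) : 0 ≤ bf x x := by
  have h := bf_sos x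
  have h1 : 0 ≤ 30 * (2 * x 0 - x 2) ^ 2 + 10 * (3 * x 2 - 2 * x 3) ^ 2 +
    30 * (2 * x 1 - x 3) ^ 2 + 2 * (5 * x 3 - 6 * x 4) ^ 2 + 3 * (4 * x 4 - 5 * x 5) ^ 2 +
    5 * (3 * x 5 - 4 * x 6) ^ 2 + 10 * (2 * x 6 - 3 * x 7) ^ 2 + 30 * x 7 ^ 2 := by positivity
  linarith

theorem eq_zero_of_bf {x : L} (h : bf x x = 0) : x = 0 := by
  have h1 := bf_sos x
  rw [h, mul_zero] at h1
  have e0 := sq_nonneg (2 * x 0 - x 2)
  have e1 := sq_nonneg (3 * x 2 - 2 * x 3)
  have e2 := sq_nonneg (2 * x 1 - x 3)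
  have e3 := sq_nonneg (5 * x 3 - 6 * x 4)
  have e4 := sq_nonneg (4 * x 4 - 5 * x 5)
  have e5 := sq_nonneg (3 * x 5 - 4 * x 6)
  have e6 := sq_nonneg (2 * x 6 - 3 * x 7)
  have e7 := sq_nonneg (x 7)
  have z0 : 2 * x 0 - x 2 = 0 := by apply pow_eq_zero_iff (two_ne_zero) |>.1; linarith
  have z1 : 3 * x 2 - 2 * x 3 = 0 := by apply pow_eq_zero_iff (two_ne_zero) |>.1; linarith
  have z2 : 2 * x 1 - x 3 = 0 := by apply pow_eq_zero_iff (two_ne_zero) |>.1; linarith
  have z3 : 5 * x 3 - 6 * x 4 = 0 := by apply pow_eq_zero_iff (two_ne_zero) |>.1; linarith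
  have z4 : 4 * x 4 - 5 * x 5 = 0 := by apply pow_eq_zero_iff (two_ne_zero) |>.1; linarith
  have z5 : 3 * x 5 - 4 * x 6 = 0 := by apply pow_eq_zero_iff (two_ne_zero) |>.1; linarith
  have z6 : 2 * x 6 - 3 * x 7 = 0 := by apply pow_eq_zero_iff (two_ne_zero) |>.1; linarith
  have z7 : x 7 = 0 := by apply pow_eq_zero_iff (two_ne_zero) |>.1; linarith
  funext i
  rw [Pi.zero_apply]
  fin_cases i
  · show x 0 = 0; omega
  · show x 1 = 0; omega
  · show x 2 = 0; omega
  · show x 3 = 0; omega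
  · show x 4 = 0; omega
  · show x 5 = 0; omega
  · show x 6 = 0; omega
  · show x 7 = 0; omega

theorem rt_ne_zero {a : L} (ha : Rt a) : a ≠ 0 := by
  rintro rfl
  have h := bf_self ha
  have h2 : bf (0 : L) 0 = 0 := by
    have := bf_smul_left 0 (0 : L) 0
    rwa [zero_smul, zero_mul] at this
  omega

theorem bf_sub_self {a b : L} (ha : Rt a) (hb : Rt b) : bf (a - b) (a - b) = 4 - 2 * bf a b := by
  rw [bf_sub_left, bf_sub_right, bf_sub_right, bf_self ha, bf_self hb, bf_comm b a]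
  ring

theorem bf_add_self {a b : L} (ha : Rt a) (hb : Rt b) : bf (a + b) (a + b) = 4 + 2 * bf a b := by
  rw [bf_add_left, bf_add_right, bf_add_right, bf_self ha, bf_self hb, bf_comm b a]
  ring

theorem bf_le {a b : L} (ha : Rt a) (hb : Rt b) : bf a b ≤ 2 := by
  have h := bf_nonneg (a - b)
  rw [bf_sub_self ha hb] at h
  omega

theorem le_bf {a b : L} (ha : Rt a) (hb : Rt b) : -2 ≤ bf a b := by
  have h := bf_nonneg (a + b)
  rw [bf_add_self ha hb] at h
  omega

theorem eq_of_bf {a b : L} (ha : Rt a) (hb : Rt b) (h : bf a b = 2) : a = b := by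
  have h1 := bf_sub_self ha hb
  rw [h] at h1
  exact sub_eq_zero.1 (eq_zero_of_bf (by rw [h1]; norm_num))

theorem eq_neg_of_bf {a b : L} (ha : Rt a) (hb : Rt b) (h : bf a b = -2) : a = -b := by
  have h1 := bf_add_self ha hb
  rw [h] at h1
  exact eq_neg_of_add_eq_zero_left (eq_zero_of_bf (by rw [h1]; norm_num))

theorem w8_left (x y : L) : bf (act w8 x) y = -bf x (act w8 y) := H136.EE.bf_w8_left x y

theorem w8_self (x : L) : bf x (act w8 x) = 0 := H136.EE.bf_w8_self x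

/-! ### The orbit of a vector -/

/-- the vectors `u ^ i a` -/
noncomputable def xx (u : W8) (a : L) (i : ZMod 5) : L := act (u ^ i.val) a

section orbit

variable {u : W8} (h5 : u ^ 5 = 1) (a : L)

include h5

theorem act_xx (i : ZMod 5) : act u (xx u a i) = xx u a (i + 1) := by
  have h1 : u ^ (i + 1).val = u ^ (i.val + 1) := by
    refine pow_eq_pow_of_modEq ?_ h5
    rw [ZMod.val_add]
    exact Nat.mod_modEq _ _
  rw [xx, xx, h1, pow_succ', act_mul]

theorem bf_xx_nat (i j : ZMod 5) (n : ℕ) : bf (xx u a (i + n)) (xx u a (j + n)) = bf (xx u a i) (xx u a j) := by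
  induction n with
  | zero => rw [Nat.cast_zero, add_zero, add_zero]
  | succ n ih =>
    rw [Nat.cast_succ, ← add_assoc, ← add_assoc, ← act_xx h5, ← act_xx h5, bf_act, ih]

theorem bf_xx (i j : ZMod 5) : bf (xx u a i) (xx u a j) = bf (xx u a 0) (xx u a (j - i)) := by
  have h := bf_xx_nat h5 a 0 (j - i) i.val
  rw [ZMod.natCast_zmod_val, zero_add, sub_add_cancel] at h
  exact h

theorem bf_xx_neg (i : ZMod 5) : bf (xx u a 0) (xx u a (-i)) = bf (xx u a 0) (xx u a i) := by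
  rw [bf_comm (xx u a 0) (xx u a i), bf_xx h5 a i 0, zero_sub]

variable (hu : u ∈ CW)

include hu

theorem bf_J_nat (i j : ZMod 5) (n : ℕ) : bf (xx u a (i + n)) (act w8 (xx u a (j + n))) =
    bf (xx u a i) (act w8 (xx u a j)) := by
  induction n with
  | zero => rw [Nat.cast_zero, add_zero, add_zero]
  | succ n ih =>
    rw [Nat.cast_succ, ← add_assoc, ← add_assoc, ← act_xx h5, ← act_xx h5, ← mem_CW.1 hu, bf_act, ih]

theorem bf_J (i j : ZMod 5) : bf (xx u a i) (act w8 (xx u a j)) = bf (xx u a 0) (act w8 (xx u a (j - i))) := by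
  have h := bf_J_nat h5 a hu 0 (j - i) i.val
  rw [ZMod.natCast_zmod_val, zero_add, sub_add_cancel] at h
  exact h

theorem bf_J_neg (i : ZMod 5) : bf (xx u a 0) (act w8 (xx u a (-i))) = -bf (xx u a 0) (act w8 (xx u a i)) := by
  have h := bf_J h5 a hu i 0
  rw [zero_sub] at h
  rw [← h, bf_comm, w8_left]

end orbit

/-! ### The rank -/

/-- the Cartan matrix of type `A₄` -/
def A4 : Fin 4 → Fin 4 → ℤ := ![![2, -1, 0, 0], ![-1, 2, -1, 0], ![0, -1, 2, -1], ![0, 0, -1, 2]]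

/-- `A₄ ⊥ A₄` -/
def GM (i j : Fin 8) : ℤ := if i.val / 4 = j.val / 4 then A4 ⟨i.val % 4, Nat.mod_lt _ (by norm_num)⟩ ⟨j.val % 4, Nat.mod_lt _ (by norm_num)⟩ else 0

/-- five times the inverse of `A4` -/
def A4' : Fin 4 → Fin 4 → ℤ := ![![4, 3, 2, 1], ![3, 6, 4, 2], ![2, 4, 6, 3], ![1, 2, 3, 4]]

/-- five times the inverse of `GM` -/
def HM (i j : Fin 8) : ℤ := if i.val / 4 = j.val / 4 then A4' ⟨i.val % 4, Nat.mod_lt _ (by norm_num)⟩ ⟨j.val % 4, Nat.mod_lt _ (by norm_num)⟩ else 0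

theorem HG : (Matrix.of HM * Matrix.of GM : Matrix (Fin 8) (Fin 8) ℤ) = (5 : ℤ) • 1 := by decide +kernel

theorem GM_ll (i j : Fin 4) : GM (Fin.castAdd 4 i) (Fin.castAdd 4 j) = A4 i j := by revert i j; decide +kernel
theorem GM_lr (i j : Fin 4) : GM (Fin.castAdd 4 i) (Fin.natAdd 4 j) = 0 := by revert i j; decide +kernel
theorem GM_rl (i j : Fin 4) : GM (Fin.natAdd 4 i) (Fin.castAdd 4 j) = 0 := by revert i j; decide +kernel
theorem GM_rr (i j : Fin 4) : GM (Fin.natAdd 4 i) (Fin.natAdd 4 j) = A4 i j := by revert i j; decide +kernel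

/-- a vector orthogonal to `A₄ ⊥ w8 A₄` is zero -/
theorem eq_zero_of_orth (X : Fin 4 → L) (hX : ∀ i j, bf (X i) (X j) = A4 i j)
    (hJ : ∀ i j, bf (X i) (act w8 (X j)) = 0) {y : L} (h1 : ∀ i, bf y (X i) = 0)
    (h2 : ∀ i, bf y (act w8 (X i)) = 0) : y = 0 := by
  let vv : Fin (4 + 4) → L := Fin.append X fun i => act w8 (X i)
  have hG : ∀ i j : Fin (4 + 4), bf (vv i) (vv j) = GM i j := by
    intro i j
    refine Fin.addCases (fun i => ?_) (fun i => ?_) i <;> refine Fin.addCases (fun j => ?_) (fun j => ?_) j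
    · rw [GM_ll, ← hX]
      show bf (Fin.append X _ (Fin.castAdd 4 i)) (Fin.append X _ (Fin.castAdd 4 j)) = _
      rw [Fin.append_left, Fin.append_left]
    · rw [GM_lr]
      show bf (Fin.append X _ (Fin.castAdd 4 i)) (Fin.append X _ (Fin.natAdd 4 j)) = _
      rw [Fin.append_left, Fin.append_right, hJ]
    · rw [GM_rl]
      show bf (Fin.append X _ (Fin.natAdd 4 i)) (Fin.append X _ (Fin.castAdd 4 j)) = _
      rw [Fin.append_left, Fin.append_right, bf_comm, hJ]
    · rw [GM_rr, ← hX]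
      show bf (Fin.append X _ (Fin.natAdd 4 i)) (Fin.append X _ (Fin.natAdd 4 j)) = _
      rw [Fin.append_right, Fin.append_right, bf_act]
  let M : Matrix (Fin 8) (Fin 8) ℤ := fun i j => vv i j
  have e1 : M * Matrix.of C8 * M.transpose = Matrix.of GM := by
    ext i j
    rw [Matrix.of_apply, ← hG, Matrix.mul_apply]
    simp only [Matrix.mul_apply, Matrix.transpose_apply, bf, Finset.sum_mul]
    rw [Finset.sum_comm]
    rfl
  have e2 : (Matrix.of HM).det * (M * Matrix.of C8).det * M.transpose.det = 5 ^ 8 := by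
    rw [← Matrix.det_mul, ← Matrix.det_mul, Matrix.mul_assoc, e1, HG, Matrix.det_smul, Matrix.det_one, Fintype.card_fin,
      mul_one]
  have e3 : (M * Matrix.of C8).det ≠ 0 := by
    intro h
    rw [h, mul_zero, zero_mul] at e2
    norm_num at e2
  refine Matrix.eq_zero_of_mulVec_eq_zero e3 ?_
  funext i
  have e4 : ((M * Matrix.of C8).mulVec y) i = bf (vv i) y := by
    simp only [Matrix.mulVec, dotProduct, Matrix.mul_apply, bf, Finset.sum_mul]
    rw [Finset.sum_comm]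
    rfl
  rw [e4, bf_comm, Pi.zero_apply]
  refine Fin.addCases (m := 4) (n := 4) (motive := fun i => bf y (vv i) = 0) (fun i => ?_) (fun i => ?_) i
  · show bf y (Fin.append X _ (Fin.castAdd 4 i)) = _
    rw [Fin.append_left, h1]
  · show bf y (Fin.append X _ (Fin.natAdd 4 i)) = _
    rw [Fin.append_right, h2]

/-! ### Coxeter elements -/

/-- `v` acts as a Coxeter element on `A₄ ⊥ w8 A₄`, spanned by the orbits of `a` and `w8 a` -/
structure Cox (v : W8) (a : L) : Prop where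
  mem : v ∈ CW
  five : v ^ 5 = 1
  rt : Rt a
  one : bf (xx v a 0) (xx v a 1) = -1
  two : bf (xx v a 0) (xx v a 2) = 0
  j1 : bf (xx v a 0) (act w8 (xx v a 1)) = 0
  j2 : bf (xx v a 0) (act w8 (xx v a 2)) = 0
  sum : xx v a 0 + xx v a 1 + xx v a 2 + xx v a 3 + xx v a 4 = 0

section cox

variable {v : W8} {a : L} (h : Cox v a)

include h

theorem Cox.root (i : ZMod 5) : Rt (xx v a i) := rt_act h.rt _

theorem Cox.bfx (i j : ZMod 5) : bf (xx v a i) (xx v a j) = if j - i = 0 then 2 else if j - i = 1 ∨ j - i = 4 then -1 else 0 := by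
  rw [bf_xx h.five a]
  have h0 : bf (xx v a 0) (xx v a 0) = 2 := bf_self (h.root 0)
  have h4 : bf (xx v a 0) (xx v a 4) = -1 := (bf_xx_neg h.five a 1).trans h.one
  have h3 : bf (xx v a 0) (xx v a 3) = 0 := (bf_xx_neg h.five a 2).trans h.two
  have hc : ∀ c : ZMod 5, c = 0 ∨ c = 1 ∨ c = 2 ∨ c = 3 ∨ c = 4 := by decide
  rcases hc (j - i) with e | e | e | e | e <;> rw [e]
  · rw [h0, if_pos rfl]
  · rw [h.one]; rfl
  · rw [h.two]; rfl
  · rw [h3]; rfl
  · rw [h4]; rfl

theorem Cox.bfJ (i j : ZMod 5) : bf (xx v a i) (act w8 (xx v a j)) = 0 := by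
  rw [bf_J h.five a h.mem]
  have h4 : bf (xx v a 0) (act w8 (xx v a 4)) = 0 := (bf_J_neg h.five a h.mem 1).trans (by rw [h.j1, neg_zero])
  have h3 : bf (xx v a 0) (act w8 (xx v a 3)) = 0 := (bf_J_neg h.five a h.mem 2).trans (by rw [h.j2, neg_zero])
  have hc : ∀ c : ZMod 5, c = 0 ∨ c = 1 ∨ c = 2 ∨ c = 3 ∨ c = 4 := by decide
  rcases hc (j - i) with e | e | e | e | e <;> rw [e]
  · exact w8_self _
  · exact h.j1
  · exact h.j2
  · exact h3
  · exact h4

/-- a vector orthogonal to the orbits is zero -/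
theorem Cox.eq_zero {y : L} (h1 : ∀ i : Fin 4, bf y (xx v a (i.val : ZMod 5)) = 0)
    (h2 : ∀ i : Fin 4, bf y (act w8 (xx v a (i.val : ZMod 5))) = 0) : y = 0 := by
  refine eq_zero_of_orth (fun i => xx v a (i.val : ZMod 5)) (fun i j => ?_) (fun i j => h.bfJ _ _) h1 h2
  rw [h.bfx]
  revert i j
  decide

/-- the product of the reflections -/
noncomputable def cc (v : W8) (a : L) : W8 :=
  rf (xx v a 0) * rf (xx v a 1) * rf (xx v a 2) * rf (xx v a 3)

omit h in
theorem cc_fix {x : L} (hr : ∀ i, Rt (xx v a i)) (hx : ∀ i : ZMod 5, bf x (xx v a i) = 0) : act (cc v a) x = x := by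
  have e : ∀ i, act (rf (xx v a i)) x = x := fun i => by rw [act_rf (hr i), hx, zero_smul, sub_zero]
  rw [cc, act_mul, act_mul, act_mul, e, e, e, e]

theorem Cox.cc_xx (i : Fin 4) : act (cc v a) (xx v a (i.val : ZMod 5)) = xx v a ((i.val : ZMod 5) + 1) := by
  have hs : xx v a 4 = -(xx v a 0 + xx v a 1 + xx v a 2 + xx v a 3) := by
    have := h.sum
    exact (neg_eq_of_add_eq_zero_right this).symm
  have e : ∀ (i : ZMod 5) (x : L), act (rf (xx v a i)) x = x - bf x (xx v a i) • xx v a i := fun i x => act_rf (h.root i) x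
  have b : ∀ i j : ZMod 5, bf (xx v a i) (xx v a j) = if j - i = 0 then 2 else if j - i = 1 ∨ j - i = 4 then -1 else 0 := h.bfx
  have b00 : bf (xx v a 0) (xx v a 0) = 2 := (b 0 0).trans (by decide)
  have b01 : bf (xx v a 0) (xx v a 1) = -1 := (b 0 1).trans (by decide)
  have b02 : bf (xx v a 0) (xx v a 2) = 0 := (b 0 2).trans (by decide)
  have b03 : bf (xx v a 0) (xx v a 3) = 0 := (b 0 3).trans (by decide)
  have b10 : bf (xx v a 1) (xx v a 0) = -1 := (b 1 0).trans (by decide)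
  have b11 : bf (xx v a 1) (xx v a 1) = 2 := (b 1 1).trans (by decide)
  have b12 : bf (xx v a 1) (xx v a 2) = -1 := (b 1 2).trans (by decide)
  have b13 : bf (xx v a 1) (xx v a 3) = 0 := (b 1 3).trans (by decide)
  have b20 : bf (xx v a 2) (xx v a 0) = 0 := (b 2 0).trans (by decide)
  have b21 : bf (xx v a 2) (xx v a 1) = -1 := (b 2 1).trans (by decide)
  have b22 : bf (xx v a 2) (xx v a 2) = 2 := (b 2 2).trans (by decide)
  have b23 : bf (xx v a 2) (xx v a 3) = -1 := (b 2 3).trans (by decide)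
  have b30 : bf (xx v a 3) (xx v a 0) = 0 := (b 3 0).trans (by decide)
  have b31 : bf (xx v a 3) (xx v a 1) = 0 := (b 3 1).trans (by decide)
  have b32 : bf (xx v a 3) (xx v a 2) = -1 := (b 3 2).trans (by decide)
  have b33 : bf (xx v a 3) (xx v a 3) = 2 := (b 3 3).trans (by decide)
  fin_cases i
  · show act (cc v a) (xx v a 0) = xx v a 1
    rw [cc, act_mul, act_mul, act_mul, e 3, b03, zero_smul, sub_zero, e 2, b02, zero_smul, sub_zero, e 1, b01, e 0]
    simp only [bf_sub_left, bf_smul_left, b00, b10]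
    module
  · show act (cc v a) (xx v a 1) = xx v a 2
    rw [cc, act_mul, act_mul, act_mul, e 3, b13, zero_smul, sub_zero, e 2, b12, e 1]
    simp only [bf_sub_left, bf_smul_left, b11, b21]
    rw [e 0]
    simp only [bf_sub_left, bf_smul_left, b10, b20]
    module
  · show act (cc v a) (xx v a 2) = xx v a 3
    rw [cc, act_mul, act_mul, act_mul, e 3, b23, e 2]
    simp only [bf_sub_left, bf_smul_left, b22, b32]
    rw [e 1]
    simp only [bf_sub_left, bf_smul_left, b21, b31]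
    rw [e 0]
    simp only [bf_sub_left, bf_smul_left, b20, b30]
    module
  · show act (cc v a) (xx v a 3) = xx v a 4
    rw [hs, cc, act_mul, act_mul, act_mul, e 3, b33, e 2]
    simp only [bf_sub_left, bf_smul_left, b32]
    rw [e 1]
    simp only [bf_sub_left, bf_smul_left, b31, b21]
    rw [e 0]
    simp only [bf_sub_left, bf_smul_left, b30, b20, b10]
    module

theorem Cox.conj (x : L) : act (w8 * cc v a * w8⁻¹) x = act w8 (act (cc v a) (act w8⁻¹ x)) := by
  rw [act_mul, act_mul]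

/-- **`v` is the product of the two Coxeter elements** -/
theorem Cox.eq : v = cc v a * (w8 * cc v a * w8⁻¹) := by
  have hinv : ∀ x : L, act w8⁻¹ x = -act w8 x := by
    intro x
    have h1 : act w8⁻¹ (act w8 (act w8 x)) = act w8 x := by rw [← act_mul, inv_mul_cancel, act_one]
    rw [w8_sq, map_neg] at h1
    rw [← h1, neg_neg]
  -- the action on the orbit of `a`
  have k1 : ∀ i : Fin 4, act (cc v a * (w8 * cc v a * w8⁻¹)) (xx v a (i.val : ZMod 5)) = xx v a ((i.val : ZMod 5) + 1) := by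
    intro i
    have e : act (cc v a) (act w8 (xx v a (i.val : ZMod 5))) = act w8 (xx v a (i.val : ZMod 5)) :=
      cc_fix h.root fun j => by rw [w8_left, h.bfJ, neg_zero]
    rw [act_mul, h.conj, hinv, map_neg, e, map_neg, w8_sq, neg_neg, h.cc_xx]
  have k2 : ∀ i : Fin 4, act (cc v a * (w8 * cc v a * w8⁻¹)) (act w8 (xx v a (i.val : ZMod 5))) =
      act w8 (xx v a ((i.val : ZMod 5) + 1)) := by
    intro i
    have e : act (cc v a) (act w8 (xx v a ((i.val : ZMod 5) + 1))) = act w8 (xx v a ((i.val : ZMod 5) + 1)) :=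
      cc_fix h.root fun j => by rw [w8_left, h.bfJ, neg_zero]
    rw [act_mul, h.conj, ← act_mul w8⁻¹, inv_mul_cancel, act_one, h.cc_xx, e]
  have hsum : xx v a 0 = -(xx v a 1 + xx v a 2 + xx v a 3 + xx v a 4) := by
    refine (neg_eq_of_add_eq_zero_left ?_).symm
    rw [← h.sum]
    abel
  refine act_ext fun x => ?_
  rw [← sub_eq_zero]
  set c := cc v a * (w8 * cc v a * w8⁻¹) with hc
  set y := act v x - act c x with hy
  -- orthogonal to the shifted orbits
  have m1 : ∀ i : Fin 4, bf y (xx v a ((i.val : ZMod 5) + 1)) = 0 := by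
    intro i
    rw [hy, bf_sub_left]
    nth_rewrite 1 [← act_xx h.five]
    rw [bf_act, ← k1 i, bf_act, sub_self]
  have m2 : ∀ i : Fin 4, bf y (act w8 (xx v a ((i.val : ZMod 5) + 1))) = 0 := by
    intro i
    rw [hy, bf_sub_left]
    nth_rewrite 1 [← act_xx h.five]
    rw [← mem_CW.1 h.mem, bf_act, ← k2 i, bf_act, sub_self]
  have n1 : bf y (xx v a 1) = 0 := m1 0
  have n2 : bf y (xx v a 2) = 0 := m1 1
  have n3 : bf y (xx v a 3) = 0 := m1 2
  have n4 : bf y (xx v a 4) = 0 := m1 3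
  have n0 : bf y (xx v a 0) = 0 := by
    rw [hsum, bf_neg_right, bf_add_right, bf_add_right, bf_add_right, n1, n2, n3, n4]
    norm_num
  have p1 : bf y (act w8 (xx v a 1)) = 0 := m2 0
  have p2 : bf y (act w8 (xx v a 2)) = 0 := m2 1
  have p3 : bf y (act w8 (xx v a 3)) = 0 := m2 2
  have p4 : bf y (act w8 (xx v a 4)) = 0 := m2 3
  have p0 : bf y (act w8 (xx v a 0)) = 0 := by
    rw [hsum, map_neg, map_add, map_add, map_add, bf_neg_right, bf_add_right, bf_add_right, bf_add_right, p1, p2, p3, p4]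
    norm_num
  refine h.eq_zero (fun i => ?_) (fun i => ?_)
  · fin_cases i
    · exact n0
    · exact n1
    · exact n2
    · exact n3
  · fin_cases i
    · exact p0
    · exact p1
    · exact p2
    · exact p3

/-- `v` lies in every subgroup containing the reflections in the orbits -/
theorem Cox.mem_of {H : Subgroup W8} (h1 : ∀ i, rf (xx v a i) ∈ H) (h2 : ∀ i, rf (act w8 (xx v a i)) ∈ H) : v ∈ H := by
  rw [h.eq]
  refine H.mul_mem ?_ ?_
  · exact H.mul_mem (H.mul_mem (H.mul_mem (h1 0) (h1 1)) (h1 2)) (h1 3)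
  · have e : w8 * cc v a * w8⁻¹ = rf (act w8 (xx v a 0)) * rf (act w8 (xx v a 1)) * rf (act w8 (xx v a 2)) *
        rf (act w8 (xx v a 3)) := by
      rw [← conj_rf w8 (h.root 0), ← conj_rf w8 (h.root 1), ← conj_rf w8 (h.root 2), ← conj_rf w8 (h.root 3), cc]
      group
    rw [e]
    exact H.mul_mem (H.mul_mem (H.mul_mem (h2 0) (h2 1)) (h2 2)) (h2 3)

end cox

end Cfsg.Agent.H762.L5
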